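import Mathlib
import Cfsg.Prelude.Def_G2
import Cfsg.Agent.Sylow2Ab.GLBlocks
import Cfsg.Agent.Forms.Matrix

/-!
The centraliser of an involution in `G₂(q)`, `q` odd, and a Sylow `2`-subgroup.
-/

set_option autoImplicit false
set_option linter.unusedSectionVars false
set_option linter.style.haveILetI false

namespace CfsgLib.Sylow2Ab.G2

open Matrix

variable {F : Type*} [Field F]

/-- `2 × 2` matrices. -/
abbrev M2 (F : Type*) : Type _ := Matrix (Fin 2) (Fin 2) F

/-- The split octonions as pairs of `2 × 2` matrices. -/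
def toPair : (Fin 8 → F) ≃ₗ[F] M2 F × M2 F where
  toFun x := (!![x 0, x 1; x 4, x 7], !![x 2, x 6; x 3, -x 5])
  invFun p := ![p.1 0 0, p.1 0 1, p.2 0 0, p.2 1 0, p.1 1 0, -p.2 1 1, p.2 0 1, p.1 1 1]
  map_add' x y := by
    refine Prod.ext ?_ ?_ <;> ext i j <;> fin_cases i <;> fin_cases j <;> simp [neg_add, add_comm]
  map_smul' r x := by
    refine Prod.ext ?_ ?_ <;> ext i j <;> fin_cases i <;> fin_cases j <;> simp
  left_inv x := by funext i; fin_cases i <;> simp
  right_inv p := by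
    refine Prod.ext ?_ ?_ <;> ext i j <;> fin_cases i <;> fin_cases j <;> simp

/-- The product on pairs. -/
def pmul (a b : M2 F × M2 F) : M2 F × M2 F :=
  (a.1 * b.1 - adjugate b.2 * a.2, b.2 * a.1 + a.2 * adjugate b.1)

theorem toPair_zornMul (x y : Fin 8 → F) :
    toPair (Cfsg.Lie.zornMul x y) = pmul (toPair x) (toPair y) := by
  refine Prod.ext ?_ ?_ <;> ext i j <;> fin_cases i <;> fin_cases j <;>
    simp [pmul, toPair, Cfsg.Lie.zornMul, Cfsg.Lie.dot3, Cfsg.Lie.cross3, Matrix.mul_apply,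
      Fin.sum_univ_two, Matrix.adjugate_fin_two] <;> ring

theorem adjugate_val (g : GL (Fin 2) F) :
    adjugate (g : M2 F) = (g : M2 F).det • ((g⁻¹ : GL (Fin 2) F) : M2 F) := by
  calc adjugate (g : M2 F) = adjugate (g : M2 F) * (g : M2 F) * ((g⁻¹ : GL (Fin 2) F) : M2 F) := by
        rw [mul_assoc, ← Units.val_mul, mul_inv_cancel, Units.val_one, mul_one]
    _ = _ := by rw [adjugate_mul, smul_mul_assoc, one_mul]

/-- The action of a pair of invertible matrices. -/
def act : GL (Fin 2) F × GL (Fin 2) F →* ((M2 F × M2 F) ≃ₗ[F] (M2 F × M2 F)) :=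
  MonoidHom.mk' (fun k =>
    { toFun := fun a => ((k.2 : M2 F) * a.1 * ((k.2⁻¹ : GL (Fin 2) F) : M2 F),
        (k.1 : M2 F) * a.2 * ((k.2⁻¹ : GL (Fin 2) F) : M2 F))
      invFun := fun a => (((k.2⁻¹ : GL (Fin 2) F) : M2 F) * a.1 * (k.2 : M2 F),
        ((k.1⁻¹ : GL (Fin 2) F) : M2 F) * a.2 * (k.2 : M2 F))
      map_add' := fun a b => by simp [mul_add, add_mul]
      map_smul' := fun r a => by simp [smul_mul_assoc]
      left_inv := fun a => by
        refine Prod.ext ?_ ?_ <;> simp only [Matrix.mul_assoc] <;>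
          rw [← Units.val_mul, inv_mul_cancel, Units.val_one, mul_one, ← Matrix.mul_assoc, ← Units.val_mul,
            inv_mul_cancel, Units.val_one, one_mul]
      right_inv := fun a => by
        refine Prod.ext ?_ ?_ <;> simp only [Matrix.mul_assoc] <;>
          rw [← Units.val_mul, mul_inv_cancel, Units.val_one, mul_one, ← Matrix.mul_assoc, ← Units.val_mul,
            mul_inv_cancel, Units.val_one, one_mul] })
    fun k l => LinearEquiv.ext fun a => by
      refine Prod.ext ?_ ?_ <;> simp [Matrix.mul_assoc]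

theorem act_apply (k : GL (Fin 2) F × GL (Fin 2) F) (a : M2 F × M2 F) :
    act k a = ((k.2 : M2 F) * a.1 * ((k.2⁻¹ : GL (Fin 2) F) : M2 F),
      (k.1 : M2 F) * a.2 * ((k.2⁻¹ : GL (Fin 2) F) : M2 F)) := rfl

theorem act_pmul {k : GL (Fin 2) F × GL (Fin 2) F} (hk : (k.1 : M2 F).det = (k.2 : M2 F).det)
    (a b : M2 F × M2 F) : act k (pmul a b) = pmul (act k a) (act k b) := by
  obtain ⟨p, c⟩ := k
  simp only [act_apply, pmul] at *
  have hd : (c : M2 F).det * ((c⁻¹ : GL (Fin 2) F) : M2 F).det = 1 := by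
    rw [← det_mul, ← Units.val_mul, mul_inv_cancel, Units.val_one, det_one]
  have hc : ∀ Z : M2 F, ((c⁻¹ : GL (Fin 2) F) : M2 F) * ((c : M2 F) * Z) = Z := fun Z => by
    rw [← Matrix.mul_assoc, ← Units.val_mul, inv_mul_cancel, Units.val_one, one_mul]
  have hp : ∀ Z : M2 F, ((p⁻¹ : GL (Fin 2) F) : M2 F) * ((p : M2 F) * Z) = Z := fun Z => by
    rw [← Matrix.mul_assoc, ← Units.val_mul, inv_mul_cancel, Units.val_one, one_mul]
  refine Prod.ext ?_ ?_
  · simp only [adjugate_mul_distrib, adjugate_val c⁻¹, adjugate_val p, inv_inv, mul_sub, sub_mul,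
      smul_mul_assoc, mul_smul_comm, Matrix.mul_assoc, hc, hp, smul_smul, hk]
    rw [hd, one_smul]
  · simp only [adjugate_mul_distrib, adjugate_val c⁻¹, adjugate_val c, inv_inv, mul_add, add_mul,
      smul_mul_assoc, mul_smul_comm, Matrix.mul_assoc, hc, smul_smul]
    rw [hd, one_smul]

/-- Pairs with equal determinant. -/
def K (F : Type*) [Field F] : Subgroup (GL (Fin 2) F × GL (Fin 2) F) :=
  MonoidHom.ker ((GeneralLinearGroup.det.comp (MonoidHom.fst (GL (Fin 2) F) (GL (Fin 2) F))) /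
    (GeneralLinearGroup.det.comp (MonoidHom.snd (GL (Fin 2) F) (GL (Fin 2) F))) :
      GL (Fin 2) F × GL (Fin 2) F →* Fˣ)

theorem mem_K {k : GL (Fin 2) F × GL (Fin 2) F} : k ∈ K F ↔ (k.1 : M2 F).det = (k.2 : M2 F).det := by
  rw [K, MonoidHom.mem_ker, MonoidHom.div_apply, div_eq_one]
  exact Units.ext_iff

/-- The homomorphism to `GL₈`. -/
noncomputable def toGL8 : GL (Fin 2) F × GL (Fin 2) F →* GL (Fin 8) F :=
  (CfsgLib.Forms.glEquiv (F := F) (ι := Fin 8)).symm.toMonoidHom.comp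
    (MonoidHom.mk' (fun k => (toPair.trans (act k)).trans toPair.symm) fun k l => LinearEquiv.ext fun x => by
      show toPair.symm (act (k * l) (toPair x)) = toPair.symm (act k (toPair (toPair.symm (act l (toPair x)))))
      rw [map_mul, LinearEquiv.apply_symm_apply]
      rfl)

theorem toGL8_mulVec (k : GL (Fin 2) F × GL (Fin 2) F) (x : Fin 8 → F) :
    ((toGL8 k : GL (Fin 8) F) : Matrix (Fin 8) (Fin 8) F) *ᵥ x = toPair.symm (act k (toPair x)) := by
  rw [← CfsgLib.Forms.glEquiv_apply]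
  simp [toGL8]

/-- The homomorphism to `G₂`. -/
noncomputable def f : K F →* Cfsg.Lie.G2 F :=
  (toGL8.comp (K F).subtype).codRestrict _ fun k x y => by
    show ((toGL8 (k : GL (Fin 2) F × GL (Fin 2) F) : GL (Fin 8) F) : Matrix (Fin 8) (Fin 8) F) *ᵥ _ =
      Cfsg.Lie.zornMul (((toGL8 (k : GL (Fin 2) F × GL (Fin 2) F) : GL (Fin 8) F) : Matrix (Fin 8) (Fin 8) F) *ᵥ x)
        (((toGL8 (k : GL (Fin 2) F × GL (Fin 2) F) : GL (Fin 8) F) : Matrix (Fin 8) (Fin 8) F) *ᵥ y)
    refine toPair.injective ?_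
    rw [toGL8_mulVec, toGL8_mulVec, toGL8_mulVec, toPair_zornMul, LinearEquiv.apply_symm_apply,
      toPair_zornMul, LinearEquiv.apply_symm_apply, LinearEquiv.apply_symm_apply, act_pmul (mem_K.1 k.2)]

/-- An element acting on pairs. -/
noncomputable def lin (g : Cfsg.Lie.G2 F) : (M2 F × M2 F) ≃ₗ[F] (M2 F × M2 F) :=
  (toPair.symm.trans (CfsgLib.Forms.glEquiv (g : GL (Fin 8) F))).trans toPair

theorem lin_apply (g : Cfsg.Lie.G2 F) (a : M2 F × M2 F) :
    lin g a = toPair (((g : GL (Fin 8) F) : Matrix (Fin 8) (Fin 8) F) *ᵥ toPair.symm a) := by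
  simp [lin]

theorem lin_f (k : K F) (a : M2 F × M2 F) : lin (f k) a = act (k : GL (Fin 2) F × GL (Fin 2) F) a := by
  rw [lin_apply]
  show toPair (((toGL8 (k : GL (Fin 2) F × GL (Fin 2) F) : GL (Fin 8) F) : Matrix (Fin 8) (Fin 8) F) *ᵥ _) = _
  rw [toGL8_mulVec, LinearEquiv.apply_symm_apply, LinearEquiv.apply_symm_apply]

theorem lin_mul (g h : Cfsg.Lie.G2 F) (a : M2 F × M2 F) : lin (g * h) a = lin g (lin h a) := by
  simp [lin]

theorem lin_injective {g h : Cfsg.Lie.G2 F} (he : ∀ a, lin g a = lin h a) : g = h := by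
  refine Subtype.ext ((CfsgLib.Forms.glEquiv (F := F) (ι := Fin 8)).injective (LinearEquiv.ext fun x => ?_))
  simpa [lin] using he (toPair x)

theorem lin_pmul (g : Cfsg.Lie.G2 F) (a b : M2 F × M2 F) : lin g (pmul a b) = pmul (lin g a) (lin g b) := by
  rw [lin_apply, lin_apply, lin_apply, ← toPair_zornMul]
  conv_lhs => rw [← LinearEquiv.apply_symm_apply toPair a, ← LinearEquiv.apply_symm_apply toPair b,
    ← toPair_zornMul, LinearEquiv.symm_apply_apply]
  exact congrArg toPair (g.2 _ _)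

theorem f_eq_one {k : K F} (h : f k = 1) : ∃ r : Fˣ, ((k : GL (Fin 2) F × GL (Fin 2) F).1 : M2 F) = (r : F) • 1 ∧
    ((k : GL (Fin 2) F × GL (Fin 2) F).2 : M2 F) = (r : F) • 1 := by
  obtain ⟨⟨p, c⟩, hk⟩ := k
  have h1 : ∀ a, act (p, c) a = a := fun a => by
    rw [← lin_f ⟨(p, c), hk⟩ a, h]; simp [lin]
  have hcX : ∀ X : M2 F, (c : M2 F) * X = X * (c : M2 F) := fun X => by
    have h2 := congrArg Prod.fst (h1 (X, 0))
    simp only [act_apply] at h2
    calc (c : M2 F) * X = (c : M2 F) * X * ((c⁻¹ : GL (Fin 2) F) : M2 F) * (c : M2 F) := by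
          rw [mul_assoc _ _ (c : M2 F), ← Units.val_mul, inv_mul_cancel, Units.val_one, mul_one]
      _ = _ := by rw [h2]
  have hpc : (p : M2 F) = c := by
    have h2 := congrArg Prod.snd (h1 (0, 1))
    simp only [act_apply, mul_one] at h2
    calc (p : M2 F) = (p : M2 F) * ((c⁻¹ : GL (Fin 2) F) : M2 F) * (c : M2 F) := by
          rw [mul_assoc, ← Units.val_mul, inv_mul_cancel, Units.val_one, mul_one]
      _ = _ := by rw [h2, one_mul]
  obtain ⟨r, hr⟩ : ∃ r : F, (c : M2 F) = r • 1 := by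
    refine ⟨(c : M2 F) 0 0, ?_⟩
    have e1 := congrFun (congrFun (hcX !![0, 1; 0, 0]) 0) 1
    have e2 := congrFun (congrFun (hcX !![0, 1; 0, 0]) 0) 0
    have e3 := congrFun (congrFun (hcX !![0, 0; 1, 0]) 0) 0
    simp [Matrix.mul_apply, Fin.sum_univ_two] at e1
    simp [Matrix.mul_apply, Fin.sum_univ_two] at e2
    simp [Matrix.mul_apply, Fin.sum_univ_two] at e3
    ext i j
    fin_cases i <;> fin_cases j <;> simp [e1, ← e2, e3]
  have hr0 : r ≠ 0 := fun e => by
    have := GeneralLinearGroup.det_ne_zero c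
    rw [hr, e, zero_smul] at this
    simp at this
  exact ⟨Units.mk0 r hr0, by simpa [hpc] using hr, by simpa using hr⟩

theorem f_scalar (r : Fˣ) (hk : ((GeneralLinearGroup.scalar (Fin 2) r, GeneralLinearGroup.scalar (Fin 2) r) :
    GL (Fin 2) F × GL (Fin 2) F) ∈ K F) : f ⟨_, hk⟩ = 1 := by
  refine lin_injective fun a => ?_
  have hs' : ∀ r : Fˣ, ((GeneralLinearGroup.scalar (Fin 2) r : GL (Fin 2) F) : M2 F) = (r : F) • 1 := fun r => by
    ext i j; fin_cases i <;> fin_cases j <;> simp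
  have hs := hs' r
  have hi : (((GeneralLinearGroup.scalar (Fin 2) r)⁻¹ : GL (Fin 2) F) : M2 F) = ((r⁻¹ : Fˣ) : F) • 1 := by
    rw [← map_inv]; exact hs' r⁻¹
  rw [lin_f, act_apply]
  simp only [hs, hi]
  simp [lin, smul_smul]

theorem scalar_mem (r : Fˣ) :
    ((GeneralLinearGroup.scalar (Fin 2) r, GeneralLinearGroup.scalar (Fin 2) r) : GL (Fin 2) F × GL (Fin 2) F) ∈ K F :=
  mem_K.2 rfl

/-- The involution. -/
noncomputable def zK (F : Type*) [Field F] : K F :=
  ⟨(GeneralLinearGroup.scalar (Fin 2) (-1), 1), mem_K.2 (by simp [Matrix.det_fin_two])⟩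

theorem lin_z (a : M2 F × M2 F) : lin (f (zK F)) a = (a.1, -a.2) := by
  rw [lin_f, act_apply]
  have h : ((GeneralLinearGroup.scalar (Fin 2) (-1 : Fˣ) : GL (Fin 2) F) : M2 F) = -1 := by
    ext i j; fin_cases i <;> fin_cases j <;> simp
  simp [zK, h]

theorem mem_range_of_commute (h2 : (2 : F) ≠ 0) {g : Cfsg.Lie.G2 F} (hg : g * f (zK F) = f (zK F) * g) :
    ∃ k : K F, f k = g := by
  have hcomm : ∀ a : M2 F × M2 F, lin g (a.1, -a.2) = ((lin g a).1, -(lin g a).2) := fun a => by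
    rw [← lin_z a, ← lin_mul, hg, lin_mul, lin_z]
  have hself : ∀ M : M2 F, M = -M → M = 0 := fun M h => by
    ext i j
    have := congrFun (congrFun h i) j
    rw [Matrix.neg_apply] at this
    exact (mul_eq_zero.1 (show (2 : F) * M i j = 0 by linear_combination this)).resolve_left h2
  have hX : ∀ X : M2 F, (lin g (X, 0)).2 = 0 := fun X => by
    have := congrArg Prod.snd (hcomm (X, 0))
    simp only [neg_zero] at this
    exact hself _ this
  have hN : ∀ N : M2 F, (lin g (0, N)).1 = 0 := fun N => by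
    have e1 := congrArg Prod.fst (hcomm (0, N))
    have e2 : lin g ((0 : M2 F), -N) = -lin g (0, N) := by rw [← map_neg]; simp
    simp only [e2, Prod.fst_neg] at e1
    exact hself _ e1.symm
  let A : M2 F →ₗ[F] M2 F := (LinearMap.fst F _ _).comp ((lin g).toLinearMap.comp (LinearMap.inl F _ _))
  have hA : ∀ X : M2 F, lin g (X, 0) = (A X, 0) := fun X => Prod.ext rfl (hX X)
  have hAinj : Function.Injective A := fun X Y h => by
    have : lin g (X, 0) = lin g (Y, 0) := by rw [hA, hA, h]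
    exact congrArg Prod.fst ((lin g).injective this)
  let Ae : M2 F ≃ₗ[F] M2 F := LinearEquiv.ofInjectiveEndo A hAinj
  have hAe : ∀ X, Ae X = A X := fun X => rfl
  have hAmul : ∀ X Y : M2 F, A (X * Y) = A X * A Y := fun X Y => by
    have := congrArg Prod.fst (lin_pmul g (X, 0) (Y, 0))
    simpa [pmul, hA] using this
  have hA1 : A 1 = 1 := by
    obtain ⟨X, hX1⟩ := Ae.surjective 1
    rw [hAe] at hX1
    calc A 1 = A 1 * A X := by rw [hX1, mul_one]
      _ = 1 := by rw [← hAmul, one_mul, hX1]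
  let φ : M2 F ≃ₐ[F] M2 F := AlgEquiv.ofLinearEquiv Ae (by rw [hAe, hA1]) fun X Y => by simp only [hAe, hAmul]
  obtain ⟨T, hT⟩ := (((Matrix.toLinAlgEquiv' (R := F) (n := Fin 2)).symm.trans φ).trans
    Matrix.toLinAlgEquiv').eq_linearEquivConjAlgEquiv
  let c : GL (Fin 2) F := CfsgLib.Forms.glEquiv.symm T
  have hc : ∀ X : M2 F, A X = (c : M2 F) * X * ((c⁻¹ : GL (Fin 2) F) : M2 F) := fun X => by
    have h1 : ∀ v : Fin 2 → F, A X *ᵥ v = T (X *ᵥ T.symm v) := fun v => by
      have := LinearMap.congr_fun (AlgEquiv.congr_fun hT (Matrix.toLinAlgEquiv' X)) v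
      simpa [φ, hAe, LinearEquiv.conjAlgEquiv_apply] using this
    refine Matrix.toLin'.injective (LinearMap.ext fun v => ?_)
    rw [Matrix.toLin'_apply, Matrix.toLin'_apply, h1, ← Matrix.mulVec_mulVec, ← Matrix.mulVec_mulVec,
      ← CfsgLib.Forms.glEquiv_apply c, ← CfsgLib.Forms.glEquiv_apply c⁻¹, map_inv]
    simp only [c, MulEquiv.apply_symm_apply]
    rfl
  set B : M2 F → M2 F := fun N => (lin g (0, N)).2 with hB
  have hBg : ∀ N, lin g (0, N) = (0, B N) := fun N => Prod.ext (hN N) rfl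
  have hBmul : ∀ N X : M2 F, B (N * X) = B N * A X := fun N X => by
    have := congrArg Prod.snd (lin_pmul g (X, 0) (0, N))
    simpa [pmul, hA, hBg, adjugate] using this
  have hB1 : adjugate (B 1) * B 1 = 1 := by
    have h := congrArg Prod.fst (lin_pmul g (0, 1) (0, 1))
    have hneg : lin g (-(1 : M2 F), 0) = -(lin g (1, 0)) := by rw [← map_neg]; simp
    simp only [pmul, mul_zero, zero_sub, adjugate_one, one_mul, hBg, adjugate_zero, add_zero] at h
    rw [hneg, hA, hA1] at h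
    simpa using h.symm
  have hd : (B 1).det = 1 := by
    rw [adjugate_mul] at hB1
    have := congrFun (congrFun hB1 0) 0
    simpa using this
  have hdu : IsUnit (B 1 * (c : M2 F)).det := by
    rw [det_mul, hd, one_mul]; exact isUnit_iff_ne_zero.2 (GeneralLinearGroup.det_ne_zero c)
  let p : GL (Fin 2) F := GeneralLinearGroup.mk'' (B 1 * (c : M2 F)) hdu
  refine ⟨⟨(p, c), mem_K.2 (by show (B 1 * (c : M2 F)).det = _; rw [det_mul, hd, one_mul])⟩, lin_injective fun a => ?_⟩
  rw [lin_f, act_apply, show a = (a.1, 0) + (0, a.2) by simp, map_add, hA, hBg]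
  refine Prod.ext ?_ ?_
  · simp [hc]
  · have := hBmul 1 a.2
    rw [one_mul] at this
    show B 1 * (c : M2 F) * ((a.1, 0) + (0, a.2) : M2 F × M2 F).2 * _ = _
    simp [this, hc, Matrix.mul_assoc]

theorem commute_scalar {p a b : M2 F} (ha : p * a = a * p) (hb : p * b = b * p) (hab : a * b ≠ b * a) :
    ∃ r : F, p = r • 1 := by
  have e : ∀ m : M2 F, p * m = m * p →
      p 0 1 * m 1 0 = m 0 1 * p 1 0 ∧ p 0 1 * (m 1 1 - m 0 0) = m 0 1 * (p 1 1 - p 0 0) ∧
        p 1 0 * (m 1 1 - m 0 0) = m 1 0 * (p 1 1 - p 0 0) := fun m hm => by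
    have h00 := congrFun (congrFun hm 0) 0
    have h01 := congrFun (congrFun hm 0) 1
    have h10 := congrFun (congrFun hm 1) 0
    simp only [Matrix.mul_apply, Fin.sum_univ_two] at h00 h01 h10
    refine ⟨by linear_combination h00, by linear_combination h01, by linear_combination -h10⟩
  obtain ⟨a1, a2, a3⟩ := e a ha
  obtain ⟨b1, b2, b3⟩ := e b hb
  refine ⟨p 0 0, ?_⟩
  by_contra hne
  apply hab
  suffices h : a 0 1 * b 1 0 - b 0 1 * a 1 0 = 0 ∧ a 0 1 * (b 1 1 - b 0 0) - b 0 1 * (a 1 1 - a 0 0) = 0 ∧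
      a 1 0 * (b 1 1 - b 0 0) - b 1 0 * (a 1 1 - a 0 0) = 0 by
    obtain ⟨y1, y2, y3⟩ := h
    ext i j
    fin_cases i <;> fin_cases j <;> simp [Matrix.mul_apply, Fin.sum_univ_two] <;>
      first
        | linear_combination y1
        | linear_combination -y1
        | linear_combination y2
        | linear_combination -y2
        | linear_combination y3
        | linear_combination -y3
  by_cases h01 : p 0 1 = 0
  · by_cases h10 : p 1 0 = 0
    · have hd : p 1 1 - p 0 0 ≠ 0 := fun h => hne (by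
        ext i j
        fin_cases i <;> fin_cases j <;> simp [h01, h10]
        linear_combination h)
      have za : a 0 1 = 0 := (mul_eq_zero.1 (show a 0 1 * (p 1 1 - p 0 0) = 0 by rw [← a2, h01, zero_mul])).resolve_right hd
      have zb : b 0 1 = 0 := (mul_eq_zero.1 (show b 0 1 * (p 1 1 - p 0 0) = 0 by rw [← b2, h01, zero_mul])).resolve_right hd
      have wa : a 1 0 = 0 := (mul_eq_zero.1 (show a 1 0 * (p 1 1 - p 0 0) = 0 by rw [← a3, h10, zero_mul])).resolve_right hd
      have wb : b 1 0 = 0 := (mul_eq_zero.1 (show b 1 0 * (p 1 1 - p 0 0) = 0 by rw [← b3, h10, zero_mul])).resolve_right hd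
      simp [za, zb, wa, wb]
    · have za : a 0 1 = 0 := (mul_eq_zero.1 (show a 0 1 * p 1 0 = 0 by rw [← a1, h01, zero_mul])).resolve_right h10
      have zb : b 0 1 = 0 := (mul_eq_zero.1 (show b 0 1 * p 1 0 = 0 by rw [← b1, h01, zero_mul])).resolve_right h10
      refine ⟨by simp [za, zb], by simp [za, zb], mul_left_cancel₀ h10 ?_⟩
      linear_combination (a 1 0) * b3 - (b 1 0) * a3
  · have y1 : a 0 1 * b 1 0 - b 0 1 * a 1 0 = 0 := mul_left_cancel₀ h01 (by
      linear_combination (a 0 1) * b1 - (b 0 1) * a1)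
    refine ⟨y1, mul_left_cancel₀ h01 (by linear_combination (a 0 1) * b2 - (b 0 1) * a2),
      mul_left_cancel₀ h01 ?_⟩
    linear_combination (a 1 0) * b2 - (b 1 0) * a2 - (p 1 1 - p 0 0) * y1

end CfsgLib.Sylow2Ab.G2
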